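import Cfsg.Agent.H250.EP.TAct

/-!
# The Tits group: the socle of order 360 (helper250)
-/

set_option autoImplicit false
set_option linter.unusedSectionVars false
set_option linter.style.haveILetI false

namespace Cfsg.Agent.H250.EP

open MulAction Subgroup Cfsg.Agent.H284 Cfsg.Agent.H209.EPX Cfsg.Agent.H247.EPR Cfsg.Agent.H742.EX

theorem dvd_of_mod {a b : ℕ} (h : a ∣ b) : b % a = 0 := Nat.mod_eq_zero_of_dvd h

/-- the arithmetic of the orders of `N_G(Q)` -/
theorem tos_8640 : (List.all (1 :: tos) fun c => Nat.ble c 8597 || Nat.ble 8907 c || Nat.beq c 8640) = true := by decide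

theorem cnt_eq_zero {G : Type*} [Group G] [Finite G] {K L : Subgroup G} (h : K ≤ L) (r : ℕ) : cnt r K ≤ cnt r L := cnt_mono h

namespace TF

variable {G : Type*} [Group G] [Finite G] (F : TF G)

include F

theorem cnt3_360 {N : Subgroup G} (hs : IsSimpleGroup N) (hN : Nat.card N = 360) : cnt 3 N ≤ 80 := by
  have hf := Fact.mk Nat.prime_three
  have hN' : Nat.card N = 3 ^ 2 * 40 := by rw [hN]; norm_num
  obtain ⟨P, hPN, hP⟩ := exists_sub (G := G) (K := N) (k := 2) Nat.prime_three (by rw [hN]; norm_num)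
  have hmod : nsub (3 ^ 2) N % 3 = 1 := nsub_mod Nat.prime_three hN' (by norm_num)
  have hdvd := nsub_dvd Nat.prime_three hN' (by norm_num) hPN hP
  have hmul := nsub_mul Nat.prime_three hN' (by norm_num) hPN hP
  have hle := cnt_le_syl Nat.prime_three (K := N) (k := 2) (by norm_num) hN' (by norm_num)
  have h40 : nsub (3 ^ 2) N ≠ 40 := by
    intro e
    rw [e, hN] at hmul
    have h1 : Nat.card (N ⊓ normalizer (P : Set G) : Subgroup G) = 9 := by omega
    have h2 : P = N ⊓ normalizer (P : Set G) := Subgroup.eq_of_le_of_card_ge (le_inf hPN Subgroup.le_normalizer) (by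
      rw [h1, hP]; norm_num)
    refine no_burnside hs Nat.prime_three (k := 2) (r := 40) (by norm_num) (by norm_num) hN' (by norm_num) hPN hP ?_
    intro g hg hn v hv
    have h3 : g ∈ P := by rw [h2]; exact ⟨hg, hn⟩
    have h4 := IsPGroup.commutative_of_card_eq_prime_sq (p := 3) (G := P) hP ⟨g, h3⟩ ⟨v, hv⟩
    exact Subtype.ext_iff.1 h4
  have h10 : nsub (3 ^ 2) N ≤ 10 := by
    have h1 : nsub (3 ^ 2) N ≤ 40 := Nat.le_of_dvd (by norm_num) hdvd
    have h2 : 40 % nsub (3 ^ 2) N = 0 := dvd_of_mod hdvd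
    generalize nsub (3 ^ 2) N = n at *
    interval_cases n <;> omega
  calc cnt 3 N ≤ (3 ^ 2 - 1) * nsub (3 ^ 2) N := hle
    _ ≤ (3 ^ 2 - 1) * 10 := Nat.mul_le_mul_left _ h10
    _ = 80 := by norm_num

theorem primes35 {H M : Subgroup G} {a : ℕ} (hH : Nat.card H = 360 * a) (ha' : a = 1 ∨ a = 2 ∨ a = 4) (hM : M ≤ H)
    (hno : ¬ IsPGroup 2 M) : 4 ≤ 2 * cnt 3 M + cnt 5 M := by
  obtain ⟨r, hr, hr2, hrd⟩ := exists_prime_of_not_pgroup Nat.prime_two hno
  have h1 : r ∣ 360 * a := by
    rw [← hH]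
    exact hrd.trans (Subgroup.card_dvd_of_le hM)
  have h2 : r ∈ Nat.primeFactors 1440 := by
    refine Nat.mem_primeFactors.2 ⟨hr, h1.trans ?_, by norm_num⟩
    rcases ha' with rfl | rfl | rfl <;> norm_num
  have h3 : Nat.primeFactors 1440 = {2, 3, 5} := by
    rw [show 1440 = 2 ^ 5 * 3 ^ 2 * 5 by norm_num, Nat.primeFactors_mul (by norm_num) (by norm_num),
      Nat.primeFactors_mul (by norm_num) (by norm_num), Nat.primeFactors_prime_pow (by norm_num) Nat.prime_two,
      Nat.primeFactors_prime_pow (by norm_num) Nat.prime_three, Nat.Prime.primeFactors (by norm_num)]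
    decide
  rw [h3] at h2
  simp only [Finset.mem_insert, Finset.mem_singleton] at h2
  rcases h2 with rfl | rfl | rfl
  · exact absurd rfl hr2
  · have := le_cnt Nat.prime_three hrd
    omega
  · have := le_cnt Nat.prime_five hrd
    omega

theorem no_360 [IsSimpleGroup G] {H N : Subgroup G} (h : S1 H N) (hN : Nat.card N = 360) : False := by
  have hf := Fact.mk Nat.prime_two
  obtain ⟨a, ha, ha', h36⟩ := F.idx4 h (Or.inr hN)
  have hco3 : Nat.Coprime 3 a := by rcases ha' with rfl | rfl | rfl <;> norm_num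
  have hco5 : Nat.Coprime 5 a := by rcases ha' with rfl | rfl | rfl <;> norm_num
  have hc3 := cnt_in h.le h.nrm ha hco3
  have hc5 := cnt_in h.le h.nrm ha hco5
  have hc5' : cnt 5 H = 144 := by
    rw [hc5, cnt_eq Nat.prime_five, h36 hN]
  have hc3' : cnt 3 H ≤ 80 := by
    rw [hc3]
    exact F.cnt3_360 h.simple hN
  have hH : Nat.card H = 360 * a := by rw [ha, hN]
  have ha4 : a ≤ 4 := by omega
  by_cases hex : ∃ x ∉ H, IsPGroup 2 (H ⊓ cj x H : Subgroup G)
  · obtain ⟨x, hx, h2⟩ := hex
    obtain ⟨k, hk, hk2⟩ : ∃ k, Nat.card H = 2 ^ k * 45 ∧ 2 ^ k = 8 * a := by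
      rcases ha' with rfl | rfl | rfl
      · exact ⟨3, by rw [hH]; norm_num, by norm_num⟩
      · exact ⟨4, by rw [hH]; norm_num, by norm_num⟩
      · exact ⟨5, by rw [hH]; norm_num, by norm_num⟩
    have hcard2 : ∀ g ∉ H, IsPGroup 2 (H ⊓ cj g H : Subgroup G) → Nat.card (H ⊓ cj g H : Subgroup G) = 2 ^ k := by
      intro g hg hg2
      have h3 := card_two hg2 (h.twoH g hg hg2) hk (by norm_num)
      have e : H ⊓ cj g H ⊓ H = H ⊓ cj g H := inf_eq_left.2 inf_le_left
      rwa [e] at h3
    set Q := H ⊓ cj x H with hQ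
    have hQc := hcard2 x hx h2
    have hQH : Q ≤ H := inf_le_left
    have hQne : Q ≠ ⊥ := by
      intro e
      rw [← hQ, e, Subgroup.card_bot] at hQc
      have : 0 < a := by omega
      omega
    have hQtop : Q ≠ ⊤ := fun e => h.ep.max.1 (top_le_iff.1 (e ▸ hQH))
    have hnQ : H ⊓ normalizer (Q : Set G) = Q := by
      apply le_antisymm
      · rintro g ⟨hg, hgn⟩
        refine ⟨hg, h.ep.norm hx (X := Q) le_rfl (fun m hm k hk => mul_mem (mul_mem hm hk) (inv_mem hm)) hQne hg ?_⟩
        intro k hk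
        exact (mem_normalizer_iff.1 hgn k).1 hk
      · exact le_inf hQH Subgroup.le_normalizer
    have h45 : nsub (2 ^ k) H = 45 := by
      have h3 := nsub_mul Nat.prime_two hk (by norm_num) hQH hQc
      rw [hnQ, hQc, hk, mul_comm] at h3
      exact Nat.eq_of_mul_eq_mul_left (pow_pos two_pos k) h3
    -- all subgroups of order `2 ^ k`
    have hall : ∀ S ≤ H, Nat.card S = 2 ^ k → ∃ u ∈ H, cj u Q = S := fun S hS hSc =>
      conj_sub' Nat.prime_two hk (by norm_num) hS hQH hSc hQc
    have hs1 : ∀ g ∉ H, nsub (2 ^ k) (H ⊓ cj g H) ≤ 1 := by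
      intro g hg
      have h3 : ∀ S : {S : Subgroup G // S ≤ H ⊓ cj g H ∧ Nat.card S = 2 ^ k}, S.1 = H ⊓ cj g H := by
        rintro ⟨S, hS, hSc⟩
        obtain ⟨u, hu, huS⟩ := hall S (hS.trans inf_le_left) hSc
        have h4 := M_eq h.ep hu hx hg (by rw [← hQ, huS]; exact hS)
        exact (huS.symm.trans h4.symm)
      have : Subsingleton {S : Subgroup G // S ≤ H ⊓ cj g H ∧ Nat.card S = 2 ^ k} :=
        ⟨fun S S' => Subtype.ext ((h3 S).trans (h3 S').symm)⟩
      exact Finite.card_le_one_iff_subsingleton.2 this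
    have h35 := F.sum35 (H := H) (f := fun g => nsub (2 ^ k) (H ⊓ cj g H)) (by
      intro g hg
      by_cases hg2 : IsPGroup 2 (H ⊓ cj g H : Subgroup G)
      · have h3 : 0 < nsub (2 ^ k) (H ⊓ cj g H) := by
          have : Nonempty {S : Subgroup G // S ≤ H ⊓ cj g H ∧ Nat.card S = 2 ^ k} := ⟨⟨_, le_rfl, hcard2 g hg hg2⟩⟩
          exact Nat.card_pos
        omega
      · have := F.primes35 hH ha' (inf_le_left : H ⊓ cj g H ≤ H) hg2
        omega)
    have hsum := sum_sub H (2 ^ k) (Nat.card (normalizer (Q : Set G))) (by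
      intro S S' hS hS' hSc hSc'
      obtain ⟨u, hu, huS⟩ := conj_sub' Nat.prime_two hk (by norm_num) hS hS' hSc hSc'
      exact ⟨u, huS⟩) (by
      intro S hS hSc
      obtain ⟨u, hu, rfl⟩ := hall S hS hSc
      have h3 := card_norm_cj (H := ⊤) (S := Q) (g := u) trivial
      rwa [top_inf_eq, top_inf_eq] at h3)
    have hsle := so_mono (H := H) (f := fun g => nsub (2 ^ k) (H ⊓ cj g H)) (f' := fun _ => 1) hs1
    have hone := so_const H 1
    have hos := F.os _ (norm_ne_top hQne hQtop)
    have h8640 := List.all_eq_true.1 tos_8640 _ hos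
    rw [F.card] at hone
    rw [h45] at hsum
    rw [hc5', hH] at h35
    rw [hH] at hone hsum
    set c := Nat.card (normalizer (Q : Set G)) with hc
    generalize so H (fun g => nsub (2 ^ k) (H ⊓ cj g H)) = S at *
    generalize so H (fun _ => 1) = O at *
    generalize cnt 3 H = u at *
    have hu80 : u ^ 2 ≤ 80 * u := by nlinarith
    have hc8640 : c = 8640 ∧ a ≠ 4 := by
      rw [Bool.or_eq_true, Bool.or_eq_true, Nat.ble_eq, Nat.ble_eq, Nat.beq_eq] at h8640
      rcases ha' with rfl | rfl | rfl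
      · rcases h8640 with (h3 | h3) | h3
        · omega
        · omega
        · exact ⟨h3, by norm_num⟩
      · rcases h8640 with (h3 | h3) | h3
        · omega
        · omega
        · exact ⟨h3, by norm_num⟩
      · exfalso
        rcases h8640 with (h3 | h3) | h3 <;> omega
    obtain ⟨hc8, ha4'⟩ := hc8640
    -- an element of order 5
    have hf5 := Fact.mk Nat.prime_five
    obtain ⟨y, hy⟩ := exists_prime_orderOf_dvd_card' (G := normalizer (Q : Set G)) 5 (by rw [← hc, hc8]; norm_num)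
    have hy5 : orderOf (y : G) = 5 := by rw [Subgroup.orderOf_coe, hy]
    have hmodQ := card_mod_y Nat.prime_five hy5 y.2
    have hQ2 : Nat.card Q = 8 * a := by rw [← hk2]; exact hQc
    have hCd : Nat.card (Q ⊓ centralizer ({(y : G)} : Set G) : Subgroup G) ∣ 2 := by
      have h3 : Nat.card (Q ⊓ centralizer ({(y : G)} : Set G) : Subgroup G) ∣ 50 := by
        rw [← F.c5 y hy5]
        exact Subgroup.card_dvd_of_le inf_le_right
      have h4 : Nat.card (Q ⊓ centralizer ({(y : G)} : Set G) : Subgroup G) ∣ 2 ^ k := by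
        rw [← hQc]
        exact Subgroup.card_dvd_of_le inf_le_left
      obtain ⟨j, hj, hjc⟩ := (Nat.dvd_prime_pow Nat.prime_two).1 h4
      rw [hjc] at h3 ⊢
      have h5 : Nat.Coprime (2 ^ j) 25 := by
        apply Nat.Coprime.pow_left
        norm_num
      exact h5.dvd_of_dvd_mul_right (show 2 ^ j ∣ 2 * 25 by exact h3)
    rw [hQ2] at hmodQ
    have hmodQ' : (8 * a) % 5 = Nat.card (Q ⊓ centralizer ({(y : G)} : Set G) : Subgroup G) % 5 := hmodQ
    have ha2 : a = 2 ∧ Nat.card (Q ⊓ centralizer ({(y : G)} : Set G) : Subgroup G) = 1 := by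
      rcases (Nat.dvd_prime Nat.prime_two).1 hCd with h3 | h3
      · rw [h3] at hmodQ'
        rcases ha' with rfl | rfl | rfl
        · omega
        · exact ⟨rfl, h3⟩
        · exact absurd rfl ha4'
      · rw [h3] at hmodQ'
        rcases ha' with rfl | rfl | rfl <;> omega
    obtain ⟨rfl, hC1⟩ := ha2
    -- `Q` is abelian
    let Z : Subgroup G := (center Q).map Q.subtype
    have hZQ : Z ≤ Q := by
      rintro _ ⟨z, _, rfl⟩
      exact z.2
    have hyZ : (y : G) ∈ normalizer (Z : Set G) := by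
      have h3 : ∀ g ∈ normalizer (Q : Set G), ∀ z ∈ Z, g * z * g⁻¹ ∈ Z := by
        rintro g hg _ ⟨z, hz, rfl⟩
        have h4 : g * z * g⁻¹ ∈ Q := (mem_normalizer_iff.1 hg z).1 z.2
        refine ⟨⟨_, h4⟩, ?_, rfl⟩
        rw [SetLike.mem_coe, mem_center_iff]
        intro w
        apply Subtype.ext
        show (w : G) * (g * z * g⁻¹) = g * z * g⁻¹ * w
        have h5 : g⁻¹ * w * g ∈ Q := by
          have h6 := (mem_normalizer_iff.1 (inv_mem hg) (w : G)).1 w.2
          rwa [inv_inv] at h6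
        have h6 := Subtype.ext_iff.1 (mem_center_iff.1 hz ⟨_, h5⟩)
        have h7 : g⁻¹ * w * g * z = z * (g⁻¹ * w * g) := h6
        calc (w : G) * (g * z * g⁻¹) = g * (g⁻¹ * w * g * z) * g⁻¹ := by group
          _ = g * (z * (g⁻¹ * w * g)) * g⁻¹ := by rw [h7]
          _ = g * z * g⁻¹ * w := by group
      exact le_norm h3 y.2
    have hmodZ := card_mod_y Nat.prime_five hy5 hyZ
    have hCZ : Nat.card (Z ⊓ centralizer ({(y : G)} : Set G) : Subgroup G) = 1 := by
      rw [Subgroup.card_eq_one] at hC1 ⊢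
      rw [eq_bot_iff, ← hC1]
      exact inf_le_inf_right _ hZQ
    rw [hCZ] at hmodZ
    have hZc : Nat.card Z ∣ 16 := by
      have : Nat.card Z ∣ Nat.card Q := Subgroup.card_dvd_of_le hZQ
      rwa [hQ2] at this
    have hZ1 : Nat.card Z ≠ 1 := by
      have h3 : Nat.card Z = Nat.card (center Q) :=
        (Nat.card_congr ((center Q).equivMapOfInjective _ Q.subtype_injective).toEquiv).symm
      rw [h3]
      have hnt : Nontrivial Q := (Subgroup.nontrivial_iff_ne_bot Q).2 hQne
      have h4 := (IsPGroup.center_nontrivial (p := 2) (G := Q) h2)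
      intro e
      rw [Nat.card_eq_one_iff_unique] at e
      exact not_subsingleton_iff_nontrivial.2 h4 e.1
    have hZ16 : Nat.card Z = 16 := by
      have h3 : Nat.card Z % 5 = 1 := hmodZ
      have h4 : 16 % Nat.card Z = 0 := dvd_of_mod hZc
      have h5 : Nat.card Z ≤ 16 := Nat.le_of_dvd (by norm_num) hZc
      generalize Nat.card Z = z at *
      interval_cases z <;> omega
    have hZeq : Z = Q := Subgroup.eq_of_le_of_card_ge hZQ (by rw [hZ16, hQ2])
    have hab : ∀ u ∈ Q, ∀ v ∈ Q, u * v = v * u := by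
      intro u hu v hv
      rw [← hZeq] at hv
      obtain ⟨z, hz, rfl⟩ := hv
      exact Subtype.ext_iff.1 (mem_center_iff.1 hz ⟨u, hu⟩)
    have hV := h.card_V hx h2 (k := 3) (r := 45) (by rw [hN]; norm_num) (by norm_num)
    have hne : H ⊓ cj x H ⊓ N ≠ ⊥ := by
      intro e
      rw [e, Subgroup.card_bot] at hV
      norm_num at hV
    refine no_burnside h.simple Nat.prime_two (k := 3) (r := 45) (by norm_num) (by norm_num) (by rw [hN]; norm_num) (by norm_num)
      (V := H ⊓ cj x H ⊓ N) inf_le_right hV ?_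
    intro g hg hn v hv
    exact hab g (h.norm_V hx hne (h.le hg) hn) v (mem_inf.1 hv).1
  · push Not at hex
    have h1 := F.sum35 (H := H) (f := fun _ => 0) (by
      intro g hg
      have := F.primes35 hH ha' (inf_le_left : H ⊓ cj g H ≤ H) (hex g hg)
      omega)
    have h0 : so H (fun _ => 0) = 0 := by
      unfold so
      simp
    rw [h0, hc5', hH] at h1
    generalize cnt 3 H = u at *
    have hu : u ^ 2 ≤ 6400 := by nlinarith
    have : 0 ≤ 360 * a * (2 * u + 144) := Nat.zero_le _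
    nlinarith

end TF

end Cfsg.Agent.H250.EP
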