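import Cfsg.Agent.H250.EP.TOne

/-!
# The Tits group: the socle of order 60 (helper250)
-/

set_option autoImplicit false
set_option linter.unusedSectionVars false
set_option linter.style.haveILetI false

namespace Cfsg.Agent.H250.EP

open MulAction Subgroup Cfsg.Agent.H284 Cfsg.Agent.H209.EPX Cfsg.Agent.H247.EPR Cfsg.Agent.H742.EX

/-- the socle `N` of the stabiliser `H` is simple -/
structure S1 {G : Type*} [Group G] (H N : Subgroup G) : Prop where
  ep : EP H
  le : N ≤ H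
  nrm : ∀ g ∈ H, ∀ k ∈ N, g * k * g⁻¹ ∈ N
  simple : IsSimpleGroup N
  twoN : ∀ x ∉ H, IsPGroup 2 (H ⊓ cj x H : Subgroup G) → ¬ 2 ∣ ((H ⊓ cj x H).subgroupOf N).index
  twoH : ∀ x ∉ H, IsPGroup 2 (H ⊓ cj x H : Subgroup G) → ¬ 2 ∣ ((H ⊓ cj x H).subgroupOf H).index

theorem S1.not_norm {G : Type*} [Group G] [Finite G] {H N : Subgroup G} (h : S1 H N) {P : Subgroup G} (hP : P ≤ N)
    (h1 : Nat.card P ≠ 1) (h2 : Nat.card P ≠ Nat.card N) : ¬ N ≤ normalizer (P : Set G) := by
  intro hle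
  have hs := h.simple
  have hn : (P.subgroupOf N).Normal := ⟨fun k hk g => of_le_norm hle g g.2 k hk⟩
  have hc : Nat.card (P.subgroupOf N) = Nat.card P := Nat.card_congr (Subgroup.subgroupOfEquivOfLe hP).toEquiv
  rcases hn.eq_bot_or_eq_top with h3 | h3
  · rw [h3, Subgroup.card_bot] at hc
    exact h1 hc.symm
  · rw [h3, Subgroup.card_top] at hc
    exact h2 hc.symm

/-- `M` a `2`-group: the normaliser of `M ∩ N` -/
theorem S1.norm_V {G : Type*} [Group G] [Finite G] {H N : Subgroup G} (h : S1 H N) {x : G} (hx : x ∉ H)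
    (hne : H ⊓ cj x H ⊓ N ≠ ⊥) {g : G} (hg : g ∈ H) (hn : g ∈ normalizer ((H ⊓ cj x H ⊓ N : Subgroup G) : Set G)) :
    g ∈ H ⊓ cj x H := by
  refine ⟨hg, h.ep.norm hx (X := H ⊓ cj x H ⊓ N) inf_le_left ?_ hne hg ?_⟩
  · intro m hm k hk
    exact ⟨(H ⊓ cj x H).mul_mem ((H ⊓ cj x H).mul_mem hm (mem_inf.1 hk).1) ((H ⊓ cj x H).inv_mem hm),
      h.nrm m (mem_inf.1 hm).1 k (mem_inf.1 hk).2⟩
  · intro k hk
    exact (mem_normalizer_iff.1 hn k).1 hk

/-- `M` a `2`-group: `M ∩ N` is a Sylow subgroup of `N` -/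
theorem S1.card_V {G : Type*} [Group G] [Finite G] {H N : Subgroup G} (h : S1 H N) {x : G} (hx : x ∉ H)
    (h2 : IsPGroup 2 (H ⊓ cj x H : Subgroup G)) {k r : ℕ} (hN : Nat.card N = 2 ^ k * r) (hr : ¬ 2 ∣ r) :
    Nat.card (H ⊓ cj x H ⊓ N : Subgroup G) = 2 ^ k := by
  have hf := Fact.mk Nat.prime_two
  have h3 := h.twoN x hx h2
  have h4 := ((H ⊓ cj x H).subgroupOf N).card_mul_index
  have h5 : Nat.card ((H ⊓ cj x H).subgroupOf N) = Nat.card (H ⊓ cj x H ⊓ N : Subgroup G) := by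
    rw [← Subgroup.inf_subgroupOf_right (H ⊓ cj x H) N]
    exact Nat.card_congr (Subgroup.subgroupOfEquivOfLe inf_le_right).toEquiv
  rw [h5, hN] at h4
  have h6 : IsPGroup 2 (H ⊓ cj x H ⊓ N : Subgroup G) := h2.to_le inf_le_left
  obtain ⟨j, hj⟩ := IsPGroup.iff_card.1 h6
  rw [hj] at h4 ⊢
  congr 1
  have hr0 : r ≠ 0 := by
    rintro rfl
    exact hr (dvd_zero _)
  have hi0 : ((H ⊓ cj x H).subgroupOf N).index ≠ 0 := index_ne_zero_of_finite
  have h7 := congrArg (fun n => n.factorization 2) h4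
  rw [Nat.factorization_mul (pow_ne_zero _ two_ne_zero) hi0, Nat.factorization_mul (pow_ne_zero _ two_ne_zero) hr0,
    Nat.factorization_pow, Nat.factorization_pow] at h7
  simpa [Nat.prime_two.factorization_self, Nat.factorization_eq_zero_of_not_dvd hr,
    Nat.factorization_eq_zero_of_not_dvd h3] using h7

namespace TF

variable {G : Type*} [Group G] [Finite G] (F : TF G)

include F

theorem cent5 {P : Subgroup G} (hP : Nat.card P = 5) : Nat.card (centralizer (P : Set G)) = 50 := by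
  obtain ⟨y, hy, hy1⟩ := exists_ne (P := P) (by rw [hP]; norm_num)
  obtain ⟨h1, h2⟩ := eq_zpowers Nat.prime_five hP hy hy1
  rw [← h1, cent_zpowers, F.c5 y h2]

/-- `|H : N|` is `1`, `2` or `4` -/
theorem idx4 {H N : Subgroup G} (h : S1 H N) (hN : Nat.card N = 60 ∨ Nat.card N = 360) :
    ∃ a, Nat.card H = Nat.card N * a ∧ (a = 1 ∨ a = 2 ∨ a = 4) ∧ (Nat.card N = 360 → nsub 5 N = 36) := by
  have hf := Fact.mk Nat.prime_five
  have h5N : 5 ∣ Nat.card N := by
    rcases hN with e | e <;> rw [e] <;> norm_num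
  obtain ⟨r, hNr⟩ := h5N
  have hr : r = 12 ∨ r = 72 := by omega
  have hNr' : Nat.card N = 5 ^ 1 * r := by rw [hNr, pow_one]
  have h5r : ¬ 5 ∣ r := by rcases hr with rfl | rfl <;> norm_num
  obtain ⟨P, hPN, hP⟩ := exists_sub (G := G) (K := N) (k := 1) Nat.prime_five (by rw [pow_one]; exact ⟨r, hNr⟩)
  have hfr := frattini_syl h.le h.nrm Nat.prime_five hNr' h5r hPN hP
  have hmod := nsub_mod Nat.prime_five hNr' h5r (K := N)
  have hdvd := nsub_dvd Nat.prime_five hNr' h5r hPN hP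
  have hmulN := nsub_mul Nat.prime_five hNr' h5r hPN hP
  rw [pow_one] at hP hfr hmod hdvd hmulN
  set ν := nsub 5 N with hν
  set c := Nat.card (H ⊓ normalizer (P : Set G) : Subgroup G) with hc
  have hν1 : ν ≠ 1 := by
    intro e
    apply h.not_norm hPN (by rw [hP]; norm_num) (by rw [hP]; rcases hN with e | e <;> rw [e] <;> norm_num)
    rw [e, one_mul] at hmulN
    have h1 : N ⊓ normalizer (P : Set G) = N := Subgroup.eq_of_le_of_card_ge inf_le_left hmulN.ge
    exact inf_eq_left.1 h1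
  have hc200 : c ∣ 200 := by
    refine (Subgroup.card_dvd_of_le inf_le_right).trans ?_
    have h1 := card_norm_prime Nat.prime_five hP
    rw [F.cent5 hP] at h1
    exact h1
  have hνmod : ν % 5 = 1 := hmod
  have hν' : (r = 12 ∧ ν = 6) ∨ (r = 72 ∧ (ν = 6 ∨ ν = 36)) := by
    rcases hr with rfl | rfl
    · left
      refine ⟨rfl, ?_⟩
      have h1 : ν ≤ 12 := Nat.le_of_dvd (by norm_num) hdvd
      clear_value ν
      interval_cases ν <;> first | rfl | omega
    · right
      refine ⟨rfl, ?_⟩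
      have h1 : ν ≤ 72 := Nat.le_of_dvd (by norm_num) hdvd
      have h2 : 72 % ν = 0 := Nat.mod_eq_zero_of_dvd hdvd
      clear_value ν
      interval_cases ν <;> omega
  -- `25` does not divide `|H|`
  have h25 : ¬ 25 ∣ Nat.card H := by
    intro h25
    obtain ⟨r', hH, hr', -⟩ := F.card25 h25
    obtain ⟨S₀, hS₀, hS₀c⟩ := exists_sub (G := G) (K := H) (k := 2) Nat.prime_five (by norm_num; exact h25)
    obtain ⟨g, hg, hgP⟩ := conj_sub Nat.prime_five hH hr' hS₀ (hPN.trans h.le) hS₀c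
      (IsPGroup.of_card (n := 1) (by rw [hP, pow_one]))
    have hPS : P ≤ cj g⁻¹ S₀ := cj_le_iff.1 hgP
    have hSH : cj g⁻¹ S₀ ≤ H := by
      rintro _ ⟨x, hx, rfl⟩
      exact H.mul_mem (H.mul_mem (H.inv_mem hg) (hS₀ hx)) (H.inv_mem (H.inv_mem hg))
    have hSc : Nat.card (cj g⁻¹ S₀ : Subgroup G) = 25 := by rw [card_cj, hS₀c]; norm_num
    set S := cj g⁻¹ S₀ with hS
    have hSN : S ⊓ N = P := by
      symm
      apply Subgroup.eq_of_le_of_card_ge (le_inf hPS hPN)
      have h1 : Nat.card (S ⊓ N : Subgroup G) ∣ 25 := by rw [← hSc]; exact Subgroup.card_dvd_of_le inf_le_left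
      have h2 : Nat.card (S ⊓ N : Subgroup G) ∣ Nat.card N := Subgroup.card_dvd_of_le inf_le_right
      have h3 : Nat.card (S ⊓ N : Subgroup G) ∣ 5 := by
        have h4 := Nat.dvd_gcd h1 h2
        rcases hN with e | e <;> rw [e] at h4 <;> norm_num at h4 <;> exact h4
      rw [hP]
      exact Nat.le_of_dvd (by norm_num) h3
    obtain ⟨y, hy, hy1⟩ := exists_ne (P := P) (by rw [hP]; norm_num)
    have hnn : H ⊓ normalizer (P : Set G) = H ⊓ normalizer (S : Set G) := by
      apply le_antisymm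
      · rintro u ⟨hu, hun⟩
        refine ⟨hu, cj_eq_iff.1 ?_⟩
        have h1 : u * y * u⁻¹ ∈ P := (mem_normalizer_iff.1 hun y).1 hy
        refine F.ti (y := u * y * u⁻¹) (by rw [card_cj]; exact hSc) hSc (conj_mem_cj (hPS hy)) (hPS h1) ?_
        intro e
        apply hy1
        have e2 : y = u⁻¹ * (u * y * u⁻¹) * u := by group
        rw [e2, e]
        group
      · rintro u ⟨hu, hun⟩
        refine ⟨hu, cj_eq_iff.1 ?_⟩
        apply Subgroup.eq_of_le_of_card_ge _ (by rw [card_cj])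
        rintro _ ⟨x, hx, rfl⟩
        have hx' : x ∈ P := hx
        rw [← hSN]
        exact ⟨(mem_normalizer_iff.1 hun x).1 (hPS hx'), h.nrm u hu x (hPN hx')⟩
    have h1 := nsub_mul Nat.prime_five hH hr' hSH (by rw [hSc]; norm_num)
    rw [← hnn, ← hfr] at h1
    have h2 : nsub (5 ^ 2) H = ν := Nat.eq_of_mul_eq_mul_right Nat.card_pos h1
    have h3 := F.mod25 hSH hSc
    have h4 : nsub (5 ^ 2) H % 25 = 1 := h3
    rw [h2] at h4
    omega
  obtain ⟨a, ha⟩ := Subgroup.card_dvd_of_le h.le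
  refine ⟨a, ha, ?_, ?_⟩
  · rw [ha] at hfr h25
    rcases hν' with ⟨rfl, hν6⟩ | ⟨rfl, hν6 | hν6⟩
    · rw [hν6, hNr] at hfr
      rw [hNr] at h25
      have h1 : c = 10 * a := by omega
      have h2 : a ∣ 20 := Nat.dvd_of_mul_dvd_mul_left (by norm_num : 0 < 10)
        (show 10 * a ∣ 10 * 20 by rw [← h1]; exact hc200)
      have h3 : a ≤ 20 := Nat.le_of_dvd (by norm_num) h2
      interval_cases a <;> omega
    · exfalso
      rw [hν6, hNr] at hfr
      have h1 : c = 60 * a := by omega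
      rw [h1] at hc200
      have h2 : 60 ∣ 200 := (dvd_mul_right 60 a).trans hc200
      norm_num at h2
    · rw [hν6, hNr] at hfr
      rw [hNr] at h25
      have h1 : c = 10 * a := by omega
      have h2 : a ∣ 20 := Nat.dvd_of_mul_dvd_mul_left (by norm_num : 0 < 10)
        (show 10 * a ∣ 10 * 20 by rw [← h1]; exact hc200)
      have h3 : a ≤ 20 := Nat.le_of_dvd (by norm_num) h2
      interval_cases a <;> omega
  · intro e
    rcases hν' with ⟨rfl, hν6⟩ | ⟨rfl, hν6 | hν6⟩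
    · omega
    · exfalso
      rw [ha, hν6, hNr] at hfr
      have h1 : c = 60 * a := by omega
      rw [h1] at hc200
      have h2 : 60 ∣ 200 := (dvd_mul_right 60 a).trans hc200
      norm_num at h2
    · exact hν6

/-- the sum for `3` and `5` -/
theorem sum35 {H : Subgroup G} {f : G → ℕ}
    (hf : ∀ g ∉ H, 4 ≤ 4 * f g + 2 * cnt 3 (H ⊓ cj g H) + cnt 5 (H ⊓ cj g H)) :
    4 * 17971200 + Nat.card H * (2 * cnt 3 H + cnt 5 H) ≤
      4 * so H f + 4 * Nat.card H + 216 * cnt 3 H ^ 2 + 50 * cnt 5 H ^ 2 := by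
  have h3 := sum_cnt H 3 108 (fun y hy => (F.c3 y hy).le)
  have h5 := sum_cnt H 5 50 (fun y hy => (F.c5 y hy).le)
  have h4 := so_const H 4
  have h1 := so_mono (H := H) (f := fun _ => 4) (f' := fun g => 4 * f g + 2 * cnt 3 (H ⊓ cj g H) + cnt 5 (H ⊓ cj g H)) hf
  rw [so_add, so_add, so_mul, so_mul] at h1
  rw [F.card] at h4
  nlinarith

theorem no_60 {H N : Subgroup G} (h : S1 H N) (hN : Nat.card N = 60) : False := by
  obtain ⟨a, ha, ha', -⟩ := F.idx4 h (Or.inl hN)
  have hco3 : Nat.Coprime 3 a := by rcases ha' with rfl | rfl | rfl <;> norm_num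
  have hco5 : Nat.Coprime 5 a := by rcases ha' with rfl | rfl | rfl <;> norm_num
  have hc3 := cnt_in h.le h.nrm ha hco3
  have hc5 := cnt_in h.le h.nrm ha hco5
  have hle : ∀ r, cnt r N ≤ 60 := by
    intro r
    rw [← hN]
    exact Nat.card_le_card_of_injective (fun y : {y : G // y ∈ N ∧ orderOf y = r} => (⟨y.1, y.2.1⟩ : N)) fun a b e => by
      exact Subtype.ext (congrArg (fun z : N => (z : G)) e)
  have hno2 : ∀ g ∉ H, ¬ IsPGroup 2 (H ⊓ cj g H : Subgroup G) := by
    intro x hx h2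
    have hf := Fact.mk Nat.prime_two
    have hV := h.card_V hx h2 (k := 2) (r := 15) (by rw [hN]; norm_num) (by norm_num)
    have hne : H ⊓ cj x H ⊓ N ≠ ⊥ := by
      intro e
      rw [e, Subgroup.card_bot] at hV
      norm_num at hV
    refine no_burnside h.simple Nat.prime_two (k := 2) (r := 15) (by norm_num) (by norm_num) (by rw [hN]; norm_num) (by norm_num)
      (V := H ⊓ cj x H ⊓ N) inf_le_right hV ?_
    intro g hg hn v hv
    have h3 : g ∈ H ⊓ cj x H ⊓ N := ⟨h.norm_V hx hne (h.le hg) hn, hg⟩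
    have h4 := IsPGroup.commutative_of_card_eq_prime_sq (p := 2) (G := (H ⊓ cj x H ⊓ N : Subgroup G)) hV ⟨g, h3⟩ ⟨v, hv⟩
    exact Subtype.ext_iff.1 h4
  have hp : ∀ g ∉ H, 3 ∣ Nat.card (H ⊓ cj g H : Subgroup G) ∨ 5 ∣ Nat.card (H ⊓ cj g H : Subgroup G) := by
    intro g hg
    obtain ⟨r, hr, hr2, hrd⟩ := exists_prime_of_not_pgroup Nat.prime_two (hno2 g hg)
    have h1 : r ∣ 60 * a := by
      rw [← hN, ← ha]
      exact hrd.trans (Subgroup.card_dvd_of_le inf_le_left)
    have h2 : r ∈ Nat.primeFactors 240 := by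
      refine Nat.mem_primeFactors.2 ⟨hr, h1.trans ?_, by norm_num⟩
      rcases ha' with rfl | rfl | rfl <;> norm_num
    have h3 : Nat.primeFactors 240 = {2, 3, 5} := by
      rw [show 240 = 2 ^ 4 * 3 * 5 by norm_num, Nat.primeFactors_mul (by norm_num) (by norm_num),
        Nat.primeFactors_mul (by norm_num) (by norm_num), Nat.primeFactors_prime_pow (by norm_num) Nat.prime_two,
        Nat.Prime.primeFactors (by norm_num), Nat.Prime.primeFactors (by norm_num)]
      decide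
    rw [h3] at h2
    simp only [Finset.mem_insert, Finset.mem_singleton] at h2
    rcases h2 with rfl | rfl | rfl
    · exact absurd rfl hr2
    · exact Or.inl hrd
    · exact Or.inr hrd
  have h1 := F.sum35 (H := H) (f := fun _ => 0) (by
    intro g hg
    rcases hp g hg with h3 | h5
    · have := le_cnt Nat.prime_three h3
      omega
    · have := le_cnt Nat.prime_five h5
      omega)
  have h0 : so H (fun _ => 0) = 0 := by
    unfold so
    simp
  rw [h0, hc3, hc5, ha, hN] at h1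
  have h3 := hle 3
  have h5 := hle 5
  generalize cnt 3 N = u at *
  generalize cnt 5 N = v at *
  have hu : u ^ 2 ≤ 3600 := by nlinarith
  have hv : v ^ 2 ≤ 3600 := by nlinarith
  have ha4 : a ≤ 4 := by omega
  have : 0 ≤ 60 * a * (2 * u + v) := Nat.zero_le _
  nlinarith

end TF

end Cfsg.Agent.H250.EP
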