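import Cfsg.Agent.H250.EP.T360

/-!
# The Tits group: the socles of order 62400 and 7800 (helper250)
-/

set_option autoImplicit false
set_option linter.unusedSectionVars false
set_option linter.style.haveILetI false

namespace Cfsg.Agent.H250.EP

open MulAction Subgroup Cfsg.Agent.H284 Cfsg.Agent.H209.EPX Cfsg.Agent.H247.EPR Cfsg.Agent.H742.EX

theorem tos_7800 : (List.all (1 :: tos) fun c => !Nat.beq c 15600 && !Nat.beq c 31200) = true := by decide

theorem conv_le {c A b u : ℕ} (hu : u ≤ b) (hA : A ≤ c * b) : c * u ^ 2 + A * b ≤ c * b ^ 2 + A * u := by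
  obtain ⟨w, rfl⟩ := Nat.exists_eq_add_of_le hu
  nlinarith [Nat.mul_le_mul_right w hA, Nat.zero_le (c * u * w)]

variable {G : Type*} [Group G] [Finite G]

theorem nsub_eq_ncard (m : ℕ) (K : Subgroup G) : nsub m K = {S : Subgroup G | S ≤ K ∧ Nat.card S = m}.ncard := by
  rw [← Nat.card_coe_set_eq]
  rfl

theorem nsub_mono {m : ℕ} {K L : Subgroup G} (h : K ≤ L) : nsub m K ≤ nsub m L := by
  rw [nsub_eq_ncard, nsub_eq_ncard]
  exact Set.ncard_le_ncard (fun S hS => ⟨hS.1.trans h, hS.2⟩) (Set.toFinite _)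

/-- all subgroups of order `m` -/
theorem all_of_nsub {m : ℕ} {K L : Subgroup G} (h : K ≤ L) (he : nsub m L ≤ nsub m K) {S : Subgroup G} (hS : S ≤ L)
    (hc : Nat.card S = m) : S ≤ K := by
  rw [nsub_eq_ncard, nsub_eq_ncard] at he
  have h1 := Set.eq_of_subset_of_ncard_le (s := {S : Subgroup G | S ≤ K ∧ Nat.card S = m})
    (t := {S : Subgroup G | S ≤ L ∧ Nat.card S = m}) (fun S hS => ⟨hS.1.trans h, hS.2⟩) he (Set.toFinite _)
  have h2 : S ∈ {S : Subgroup G | S ≤ L ∧ Nat.card S = m} := ⟨hS, hc⟩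
  rw [← h1] at h2
  exact h2.1

/-- a proper subgroup of a simple group does not contain all conjugates of a subgroup -/
theorem not_all {H M S : Subgroup G} (hs : IsSimpleGroup H) (hM : M ≤ H) (hne : M ≠ H) (hS : S ≠ ⊥) (hSH : S ≤ H) :
    ¬ ∀ g ∈ H, cj g S ≤ M := by
  intro hall
  have hn : (M.subgroupOf H).normalCore.Normal := inferInstance
  have hle : S.subgroupOf H ≤ (M.subgroupOf H).normalCore := by
    intro s hs g
    have := hall g g.2 (conj_mem_cj (x := (g : G)) (show (s : G) ∈ S from hs))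
    exact this
  rcases hn.eq_bot_or_eq_top with h1 | h1
  · apply hS
    rw [h1, le_bot_iff] at hle
    rw [Subgroup.eq_bot_iff_forall]
    intro s hs
    have h2 : (⟨s, hSH hs⟩ : H) ∈ S.subgroupOf H := hs
    rw [hle, mem_bot] at h2
    exact Subtype.ext_iff.1 h2
  · apply hne
    apply le_antisymm hM
    have h2 : M.subgroupOf H = ⊤ := top_le_iff.1 (h1 ▸ Subgroup.normalCore_le _)
    rwa [Subgroup.subgroupOf_eq_top] at h2

namespace TF

variable (F : TF G)

include F

theorem no_62400 {H N : Subgroup G} (h : S1 H N) (hN : Nat.card N = 62400) : False := by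
  obtain ⟨S, hSN, hS⟩ := exists_sub (G := G) (K := N) (k := 2) Nat.prime_five (by rw [hN]; norm_num)
  have hS25 : Nat.card S = 25 := by rw [hS]; norm_num
  have hmul := nsub_mul Nat.prime_five (r := 2496) (by rw [hN]; norm_num) (by norm_num) hSN hS
  have hmod := F.mod25 hSN hS25
  have hc : Nat.card (N ⊓ normalizer (S : Set G) : Subgroup G) ∣ 1200 := by
    rw [← F.norm25 hS25]
    exact Subgroup.card_dvd_of_le inf_le_right
  have h25 : 25 ∣ Nat.card (N ⊓ normalizer (S : Set G) : Subgroup G) := by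
    rw [← hS25]
    exact Subgroup.card_dvd_of_le (le_inf hSN Subgroup.le_normalizer)
  obtain ⟨d, hd⟩ := h25
  rw [hd] at hc hmul
  rw [hN] at hmul
  have hd48 : d ∣ 48 := Nat.dvd_of_mul_dvd_mul_left (by norm_num : 0 < 25) (show 25 * d ∣ 25 * 48 by exact hc)
  have hd' : d ≤ 48 := Nat.le_of_dvd (by norm_num) hd48
  have hmod' : nsub (5 ^ 2) N % 25 = 1 := hmod
  have hmul' : nsub (5 ^ 2) N * d = 2496 := by
    have : 25 * (nsub (5 ^ 2) N * d) = 25 * 2496 := by rw [← hmul.trans (by norm_num : 62400 = 25 * 2496)]; ring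
    omega
  generalize nsub (5 ^ 2) N = n at *
  interval_cases d <;> omega

theorem cent13 {y : G} (hy : orderOf y = 13) : Nat.card (centralizer ({y} : Set G)) ≤ 13 := by
  rw [← cent_zpowers]
  exact (F.n13 _ (by rw [Nat.card_zpowers, hy])).1.le

theorem cnt25 {S : Subgroup G} (hS : Nat.card S = 25) : 24 ≤ cnt 5 S := by
  classical
  letI := Fintype.ofFinite S
  have h1 : Nat.card {s : S // s ≠ 1} = 24 := by
    rw [Nat.card_eq_fintype_card, Fintype.card_subtype_compl, Fintype.card_subtype_eq, ← Nat.card_eq_fintype_card, hS]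
  rw [← h1]
  refine Nat.card_le_card_of_injective (fun s : {s : S // s ≠ 1} => (⟨s.1, s.1.2, F.ord5 hS s.1.2 fun e =>
    s.2 (Subtype.ext e)⟩ : {y : G // y ∈ S ∧ orderOf y = 5})) ?_
  intro a b e
  exact Subtype.ext (Subtype.ext (congrArg (fun z : {y : G // y ∈ S ∧ orderOf y = 5} => z.1) e))

/-- elements of orders 3 and 5: an element of order 5 does not normalise a subgroup of order 3 -/
theorem five_norm {K Y : Subgroup G} (hY : Nat.card Y = 3) (hK : K ≤ normalizer (Y : Set G)) : ¬ 5 ∣ Nat.card K := by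
  intro h5
  have hf := Fact.mk Nat.prime_five
  obtain ⟨x, hx⟩ := exists_prime_orderOf_dvd_card' 5 h5
  have hx5 : orderOf (x : G) = 5 := by rw [Subgroup.orderOf_coe, hx]
  have h1 := card_mod_y Nat.prime_five hx5 (hK x.2)
  have h2 : Nat.card (Y ⊓ centralizer ({(x : G)} : Set G) : Subgroup G) ∣ 3 := by
    rw [← hY]
    exact Subgroup.card_dvd_of_le inf_le_left
  rw [hY] at h1
  have h1' : 3 % 5 = Nat.card (Y ⊓ centralizer ({(x : G)} : Set G) : Subgroup G) % 5 := h1
  rcases (Nat.dvd_prime Nat.prime_three).1 h2 with h3 | h3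
  · rw [h3] at h1'
    omega
  · have hf3 := Fact.mk Nat.prime_three
    obtain ⟨y, hy⟩ := exists_prime_orderOf_dvd_card' (G := (Y ⊓ centralizer ({(x : G)} : Set G) : Subgroup G)) 3 (by rw [h3])
    exact F.ncomm y x (by rw [Subgroup.orderOf_coe, hy]) hx5 (mem_centralizer_singleton_iff.1 (mem_inf.1 y.2).2)

set_option maxHeartbeats 1000000 in
theorem no_7800 {H N : Subgroup G} (h : S1 H N) (hN : Nat.card N = 7800)
    (hno2 : ∀ x ∉ H, ¬ IsPGroup 2 (H ⊓ cj x H : Subgroup G))
    (hyz : ∃ y ∈ N, ∃ z ∈ N, orderOf y = 3 ∧ orderOf z = 2 ∧ y * z = z * y) : False := by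
  obtain ⟨S, hSN, hS⟩ := exists_sub (G := G) (K := N) (k := 2) Nat.prime_five (by rw [hN]; norm_num)
  have hS25 : Nat.card S = 25 := by rw [hS]; norm_num
  have hNr : Nat.card N = 5 ^ 2 * 312 := by rw [hN]; norm_num
  have hmul := nsub_mul Nat.prime_five hNr (by norm_num) hSN hS
  have hmod := F.mod25 hSN hS25
  have hc : Nat.card (N ⊓ normalizer (S : Set G) : Subgroup G) ∣ 1200 := by
    rw [← F.norm25 hS25]
    exact Subgroup.card_dvd_of_le inf_le_right
  have h25 : 25 ∣ Nat.card (N ⊓ normalizer (S : Set G) : Subgroup G) := by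
    rw [← hS25]
    exact Subgroup.card_dvd_of_le (le_inf hSN Subgroup.le_normalizer)
  have hn26 : nsub 25 N = 26 := by
    obtain ⟨d, hd⟩ := h25
    rw [hd] at hc hmul
    rw [hN] at hmul
    have hd48 : d ∣ 48 := Nat.dvd_of_mul_dvd_mul_left (by norm_num : 0 < 25) (show 25 * d ∣ 25 * 48 by exact hc)
    have hd' : d ≤ 48 := Nat.le_of_dvd (by norm_num) hd48
    have hmod' : nsub (5 ^ 2) N % 25 = 1 := hmod
    have hmul' : nsub (5 ^ 2) N * d = 312 := by
      have : 25 * (nsub (5 ^ 2) N * d) = 25 * 312 := by rw [← hmul.trans (by norm_num : 7800 = 25 * 312)]; ring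
      omega
    show nsub (5 ^ 2) N = 26
    generalize nsub (5 ^ 2) N = n at *
    interval_cases d <;> omega
  -- `H = N`
  have hfr := frattini_syl h.le h.nrm Nat.prime_five hNr (by norm_num) hSN hS
  have hc' : Nat.card (H ⊓ normalizer (S : Set G) : Subgroup G) ∣ 1200 := by
    rw [← F.norm25 hS25]
    exact Subgroup.card_dvd_of_le inf_le_right
  obtain ⟨a, ha⟩ := Subgroup.card_dvd_of_le h.le
  have hHN : H = N := by
    have h26 : nsub (5 ^ 2) N = 26 := hn26
    rw [h26, ha, hN] at hfr
    have h1 : Nat.card (H ⊓ normalizer (S : Set G) : Subgroup G) = 300 * a := by omega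
    rw [h1] at hc'
    have h2 : a ∣ 4 := Nat.dvd_of_mul_dvd_mul_left (by norm_num : 0 < 300) (show 300 * a ∣ 300 * 4 by exact hc')
    have h3 : a ≤ 4 := Nat.le_of_dvd (by norm_num) h2
    have h4 := List.all_eq_true.1 tos_7800 _ (F.os H h.ep.max.1)
    rw [ha, hN] at h4
    have h5 : 4 % a = 0 := dvd_of_mod h2
    have ha1 : a = 1 := by
      interval_cases a
      · omega
      · rfl
      · exact absurd h4 (by decide)
      · omega
      · exact absurd h4 (by decide)
    rw [ha1, mul_one] at ha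
    exact (Subgroup.eq_of_le_of_card_ge h.le ha.le).symm
  subst hHN
  have hs := h.simple
  -- the elements of order 13
  have hf13 : Fact (Nat.Prime 13) := ⟨by norm_num⟩
  have hp13 : Nat.Prime 13 := by norm_num
  obtain ⟨P, hPH, hP⟩ := exists_sub (G := G) (K := H) (k := 1) hp13 (by rw [hN]; norm_num)
  have hc13 : cnt 13 H = 3600 := by
    have hr13 : Nat.card H = 13 ^ 1 * 600 := by rw [hN]; norm_num
    have h1 := nsub_mul hp13 hr13 (by norm_num) hPH hP
    have h2 : nsub (13 ^ 1) H % 13 = 1 := nsub_mod hp13 hr13 (by norm_num)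
    rw [pow_one] at hP h1 h2
    have h3 : Nat.card (H ⊓ normalizer (P : Set G) : Subgroup G) ∣ 78 := by
      rw [← (F.n13 P hP).2]
      exact Subgroup.card_dvd_of_le inf_le_right
    have h4 : 13 ∣ Nat.card (H ⊓ normalizer (P : Set G) : Subgroup G) := by
      rw [← hP]
      exact Subgroup.card_dvd_of_le (le_inf hPH Subgroup.le_normalizer)
    obtain ⟨d, hd⟩ := h4
    rw [hd] at h1 h3
    rw [hN] at h1
    have h5 : d ∣ 6 := Nat.dvd_of_mul_dvd_mul_left (by norm_num : 0 < 13) (show 13 * d ∣ 13 * 6 by exact h3)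
    have h6 : d ≤ 6 := Nat.le_of_dvd (by norm_num) h5
    have h7 : nsub 13 H * d = 600 := by
      have : 13 * (nsub 13 H * d) = 13 * 600 := by rw [← h1.trans (by norm_num : 7800 = 13 * 600)]; ring
      omega
    have h8 : 6 % d = 0 := dvd_of_mod h5
    rw [cnt_eq hp13]
    generalize nsub 13 H = n at *
    interval_cases d <;> omega
  -- the elements of order 5
  have hc5 : cnt 5 H ≤ 624 := by
    have h1 := cnt_le_syl Nat.prime_five (K := H) (k := 2) (by norm_num) hNr (by norm_num)
    have h2 : nsub (5 ^ 2) H = 26 := hn26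
    rw [h2] at h1
    exact h1
  -- the elements of order 3
  have hc3 : cnt 3 H ≤ 650 := by
    obtain ⟨y, hy, z, hz, hy3, hz2, hyz⟩ := hyz
    have hr3 : Nat.card H = 3 ^ 1 * 2600 := by rw [hN]; norm_num
    have hY : Nat.card (zpowers y) = 3 := by rw [Nat.card_zpowers, hy3]
    have hYH : zpowers y ≤ H := zpowers_le.2 hy
    have h1 := nsub_mul Nat.prime_three hr3 (by norm_num) hYH (by rw [hY, pow_one])
    have h2 : nsub (3 ^ 1) H % 3 = 1 := nsub_mod Nat.prime_three hr3 (by norm_num)
    rw [pow_one] at h1 h2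
    have hcc : Nat.card (centralizer ((zpowers y : Subgroup G) : Set G)) = 108 := by rw [cent_zpowers, F.c3 y hy3]
    have h3 : Nat.card (H ⊓ normalizer ((zpowers y : Subgroup G) : Set G) : Subgroup G) ∣ 216 := by
      have h4 := card_norm_prime Nat.prime_three hY
      rw [hcc] at h4
      exact (Subgroup.card_dvd_of_le inf_le_right).trans h4
    -- the centraliser
    have h6 : 6 ∣ Nat.card (H ⊓ centralizer ((zpowers y : Subgroup G) : Set G) : Subgroup G) := by
      have hyC : y ∈ H ⊓ centralizer ((zpowers y : Subgroup G) : Set G) :=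
        mem_inf.2 ⟨hy, by rw [cent_zpowers, mem_centralizer_singleton_iff]⟩
      have hzC : z ∈ H ⊓ centralizer ((zpowers y : Subgroup G) : Set G) :=
        mem_inf.2 ⟨hz, by rw [cent_zpowers, mem_centralizer_singleton_iff]; exact hyz.symm⟩
      have h7 : 3 ∣ Nat.card (H ⊓ centralizer ((zpowers y : Subgroup G) : Set G) : Subgroup G) := by
        have := orderOf_dvd_natCard (⟨y, hyC⟩ : (H ⊓ centralizer ((zpowers y : Subgroup G) : Set G) : Subgroup G))
        rwa [Subgroup.orderOf_mk, hy3] at this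
      have h8 : 2 ∣ Nat.card (H ⊓ centralizer ((zpowers y : Subgroup G) : Set G) : Subgroup G) := by
        have := orderOf_dvd_natCard (⟨z, hzC⟩ : (H ⊓ centralizer ((zpowers y : Subgroup G) : Set G) : Subgroup G))
        rwa [Subgroup.orderOf_mk, hz2] at this
      omega
    have hCN : H ⊓ centralizer ((zpowers y : Subgroup G) : Set G) ≤ H ⊓ normalizer ((zpowers y : Subgroup G) : Set G) :=
      inf_le_inf_left _ (Subgroup.centralizer_le_normalizer _)
    have h7 := h6.trans (Subgroup.card_dvd_of_le hCN)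
    have h8 : Nat.card (H ⊓ normalizer ((zpowers y : Subgroup G) : Set G) : Subgroup G) ≠ 6 := by
      intro e
      have h9 : H ⊓ centralizer ((zpowers y : Subgroup G) : Set G) = H ⊓ normalizer ((zpowers y : Subgroup G) : Set G) :=
        Subgroup.eq_of_le_of_card_ge hCN (by rw [e]; exact Nat.le_of_dvd Nat.card_pos h6)
      refine no_burnside hs Nat.prime_three (k := 1) (r := 2600) (by norm_num) (by norm_num) hr3 (by norm_num) hYH
        (by rw [hY, pow_one]) ?_
      intro g hg hn v hv
      have h10 : g ∈ H ⊓ centralizer ((zpowers y : Subgroup G) : Set G) := by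
        rw [h9]
        exact ⟨hg, hn⟩
      exact (mem_centralizer_iff.1 (mem_inf.1 h10).2 v hv).symm
    have h9 : Nat.card (H ⊓ normalizer ((zpowers y : Subgroup G) : Set G) : Subgroup G) ∣ 24 := by
      have h10 : Nat.card (H ⊓ normalizer ((zpowers y : Subgroup G) : Set G) : Subgroup G) ∣ 7800 := by
        rw [← hN]
        exact Subgroup.card_dvd_of_le inf_le_left
      have := Nat.dvd_gcd h3 h10
      norm_num at this
      exact this
    rw [cnt_eq Nat.prime_three]
    rw [hN] at h1
    have h10 := Nat.le_of_dvd (by norm_num) h9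
    obtain ⟨d, hd⟩ := h7
    rw [hd] at h1 h8 h9 h10
    have h11 : d ∣ 4 := Nat.dvd_of_mul_dvd_mul_left (by norm_num : 0 < 6) (show 6 * d ∣ 6 * 4 by exact h9)
    have h12 : 4 % d = 0 := dvd_of_mod h11
    have h13 : d ≤ 4 := by omega
    have h14 : nsub 3 H * d = 1300 := by
      have : 6 * (nsub 3 H * d) = 6 * 1300 := by rw [← h1.trans (by norm_num : 7800 = 6 * 1300)]; ring
      omega
    generalize nsub 3 H = n at *
    interval_cases d <;> omega
  -- the sums
  have h3 := sum_cnt H 3 108 (fun y hy => (F.c3 y hy).le)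
  have h5 := sum_cnt H 5 50 (fun y hy => (F.c5 y hy).le)
  have h13 := sum_cnt H 13 13 (fun y hy => F.cent13 hy)
  have hsub := sum_sub H 25 1200 (by
    intro S S' hS hS' hSc hSc'
    obtain ⟨u, hu, huS⟩ := conj_sub' Nat.prime_five hNr (by norm_num) hS hS' (by rw [hSc]; norm_num) (by rw [hSc']; norm_num)
    exact ⟨u, huS⟩) (fun S _ hSc => F.norm25 hSc)
  have hone := so_const H 12
  have hpt : ∀ g ∉ H, 12 + 360 * nsub 25 (H ⊓ cj g H) ≤
      6 * cnt 3 (H ⊓ cj g H) + cnt 13 (H ⊓ cj g H) + 3 * cnt 5 (H ⊓ cj g H) := by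
    intro g hg
    have hMne : H ⊓ cj g H ≠ H := fun e => h.ep.not_le_cj hg (inf_eq_left.1 e)
    by_cases hex : ∃ S' ≤ H ⊓ cj g H, Nat.card S' = 25
    · obtain ⟨S', hS'M, hS'⟩ := hex
      have hS'H : S' ≤ H := hS'M.trans inf_le_left
      have hne : S' ≠ ⊥ := by
        intro e
        rw [e, Subgroup.card_bot] at hS'
        norm_num at hS'
      obtain ⟨r, hMr, hr5, -⟩ := F.card25 (K := H ⊓ cj g H) (by rw [← hS']; exact Subgroup.card_dvd_of_le hS'M)
      have hn1 : nsub 25 (H ⊓ cj g H) = 1 := by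
        have h1 : nsub 25 (H ⊓ cj g H) % 25 = 1 := F.mod25 hS'M hS'
        have h2 : nsub 25 (H ⊓ cj g H) ≤ nsub 25 H := nsub_mono inf_le_left
        have h4 : nsub 25 (H ⊓ cj g H) ≠ 26 := by
          intro e
          apply not_all hs (M := H ⊓ cj g H) inf_le_left hMne hne hS'H
          intro u hu
          apply all_of_nsub (m := 25) (inf_le_left : H ⊓ cj g H ≤ H) (by rw [e, hn26])
          · rintro _ ⟨w, hw, rfl⟩
            exact H.mul_mem (H.mul_mem hu (hS'H hw)) (H.inv_mem hu)
          · rw [card_cj, hS']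
        rw [hn26] at h2
        omega
      have hMn : H ⊓ cj g H ≤ normalizer (S' : Set G) := by
        have h1 := nsub_mul Nat.prime_five hMr hr5 hS'M (by rw [hS']; norm_num)
        have h2 : nsub (5 ^ 2) (H ⊓ cj g H) = 1 := hn1
        rw [h2, one_mul] at h1
        exact inf_eq_left.1 (Subgroup.eq_of_le_of_card_ge inf_le_left h1.ge)
      have hM300 : Nat.card (H ⊓ cj g H : Subgroup G) = 300 := by
        have h1 := nsub_mul Nat.prime_five hNr (by norm_num) hS'H (by rw [hS']; norm_num)
        have h2 : nsub (5 ^ 2) H = 26 := hn26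
        rw [h2, hN] at h1
        have h4 : H ⊓ normalizer (S' : Set G) = H ⊓ cj g H := by
          rcases h.ep.two g hg (H ⊓ normalizer (S' : Set G)) (le_inf inf_le_left hMn) inf_le_left with h5 | h5
          · exact h5
          · exfalso
            exact h.not_norm hS'H (by rw [hS']; norm_num) (by rw [hS', hN]; norm_num) (inf_eq_left.1 h5)
        rw [h4] at h1
        omega
      have hc5M : 24 ≤ cnt 5 (H ⊓ cj g H) := (F.cnt25 hS').trans (cnt_mono hS'M)
      have hc3M : 50 ≤ cnt 3 (H ⊓ cj g H) := by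
        have hMr3 : Nat.card (H ⊓ cj g H : Subgroup G) = 3 ^ 1 * 100 := by rw [hM300]; norm_num
        obtain ⟨Y, hYM, hY⟩ := exists_sub (G := G) (K := H ⊓ cj g H) (k := 1) Nat.prime_three (by rw [hM300]; norm_num)
        have h1 := nsub_mul Nat.prime_three hMr3 (by norm_num) hYM hY
        rw [pow_one] at hY h1
        have h2 := F.five_norm (K := H ⊓ cj g H ⊓ normalizer (Y : Set G)) hY inf_le_right
        have h4 : Nat.card (H ⊓ cj g H ⊓ normalizer (Y : Set G) : Subgroup G) ∣ 300 := by
          rw [← hM300]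
          exact Subgroup.card_dvd_of_le inf_le_left
        rw [hM300] at h1
        rw [cnt_eq Nat.prime_three]
        have h6 : Nat.Coprime (Nat.card (H ⊓ cj g H ⊓ normalizer (Y : Set G) : Subgroup G)) 25 := by
          rw [Nat.coprime_comm, show 25 = 5 ^ 2 by norm_num]
          exact Nat.Coprime.pow_left 2 ((Nat.Prime.coprime_iff_not_dvd Nat.prime_five).2 h2)
        have h7 : Nat.card (H ⊓ cj g H ⊓ normalizer (Y : Set G) : Subgroup G) ∣ 12 :=
          h6.dvd_of_dvd_mul_left (show _ ∣ 25 * 12 by exact h4)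
        have h8 := Nat.le_of_dvd (by norm_num) h7
        nlinarith
      rw [hn1]
      omega
    · have h0 : nsub 25 (H ⊓ cj g H) = 0 := by
        have : IsEmpty {S : Subgroup G // S ≤ H ⊓ cj g H ∧ Nat.card S = 25} :=
          ⟨fun S => hex ⟨S.1, S.2.1, S.2.2⟩⟩
        exact Nat.card_of_isEmpty
      rw [h0]
      obtain ⟨r, hr, hr2, hrd⟩ := exists_prime_of_not_pgroup Nat.prime_two (hno2 g hg)
      have h1 : r ∣ 7800 := by
        rw [← hN]
        exact hrd.trans (Subgroup.card_dvd_of_le inf_le_left)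
      have h2 : r ∈ Nat.primeFactors 7800 := Nat.mem_primeFactors.2 ⟨hr, h1, by norm_num⟩
      have h4 : Nat.primeFactors 7800 = {2, 3, 5, 13} := by
        rw [show 7800 = 2 ^ 3 * 3 * 5 ^ 2 * 13 by norm_num, Nat.primeFactors_mul (by norm_num) (by norm_num),
          Nat.primeFactors_mul (by norm_num) (by norm_num), Nat.primeFactors_mul (by norm_num) (by norm_num),
          Nat.primeFactors_prime_pow (by norm_num) Nat.prime_two, Nat.Prime.primeFactors (by norm_num),
          Nat.primeFactors_prime_pow (by norm_num) Nat.prime_five, Nat.Prime.primeFactors (by norm_num)]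
        decide
      rw [h4] at h2
      simp only [Finset.mem_insert, Finset.mem_singleton] at h2
      rcases h2 with rfl | rfl | rfl | rfl
      · exact absurd rfl hr2
      · have := le_cnt Nat.prime_three hrd
        omega
      · have := le_cnt Nat.prime_five hrd
        omega
      · have := le_cnt hp13 hrd
        omega
  have hfin := so_mono (H := H) (f := fun g => 12 + 360 * nsub 25 (H ⊓ cj g H))
    (f' := fun g => 6 * cnt 3 (H ⊓ cj g H) + cnt 13 (H ⊓ cj g H) + 3 * cnt 5 (H ⊓ cj g H)) hpt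
  rw [so_add, so_add, so_add, so_mul, so_mul, so_mul] at hfin
  rw [F.card, hN] at hone
  rw [hn26, hN] at hsub
  rw [hN] at h3 h5 h13
  rw [hc13] at h13
  generalize cnt 3 H = u at *
  generalize cnt 5 H = v at *
  have hu := conv_le (c := 108) (A := 7800) hc3 (by norm_num)
  have hv := conv_le (c := 50) (A := 7800) hc5 (by norm_num)
  clear hpt hno2
  generalize u ^ 2 = uu at *
  generalize v ^ 2 = vv at *
  norm_num at hu hv h3 h5 h13 hsub hone
  omega

end TF

end Cfsg.Agent.H250.EP
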