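import Cfsg.Agent.H250.EP.T60

/-!
# Elements of prime order acting on subgroups (helper250)
-/

set_option autoImplicit false
set_option linter.unusedSectionVars false
set_option linter.style.haveILetI false

namespace Cfsg.Agent.H250.EP

open MulAction Subgroup Cfsg.Agent.H284 Cfsg.Agent.H209.EPX Cfsg.Agent.H247.EPR Cfsg.Agent.H742.EX

variable {G : Type*} [Group G] [Finite G]

/-- the conjugation action of a subgroup -/
@[reducible] def actN {A K : Subgroup G} (h : A ≤ normalizer (K : Set G)) : MulAction A K where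
  smul a x := ⟨a * x * (a : G)⁻¹, of_le_norm h a a.2 x x.2⟩
  one_smul x := Subtype.ext (by show (1 : G) * x * (1 : G)⁻¹ = x; simp)
  mul_smul a b x := Subtype.ext (by
    show (a * b : G) * x * (a * b : G)⁻¹ = a * (b * x * (b : G)⁻¹) * (a : G)⁻¹
    group)

/-- fixed points of a `p`-group -/
theorem card_mod_cent {A K : Subgroup G} {p : ℕ} (hp : p.Prime) (hA : IsPGroup p A) (h : A ≤ normalizer (K : Set G)) :
    Nat.card K ≡ Nat.card (K ⊓ centralizer (A : Set G) : Subgroup G) [MOD p] := by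
  have hf := Fact.mk hp
  letI := actN h
  have h1 := IsPGroup.card_modEq_card_fixedPoints (G := A) (p := p) hA K
  have h2 : Nat.card (MulAction.fixedPoints A K) = Nat.card (K ⊓ centralizer (A : Set G) : Subgroup G) := by
    refine Nat.card_congr
      { toFun := fun x => ⟨x.1, x.1.2, ?_⟩
        invFun := fun x => ⟨⟨x.1, (mem_inf.1 x.2).1⟩, ?_⟩
        left_inv := fun x => rfl
        right_inv := fun x => rfl }
    · show ((x.1 : K) : G) ∈ centralizer (A : Set G)
      rw [mem_centralizer_iff]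
      intro a ha
      have h3 : (a : G) * x.1 * (a : G)⁻¹ = x.1 := Subtype.ext_iff.1 (x.2 ⟨a, ha⟩)
      exact mul_inv_eq_iff_eq_mul.1 h3
    · intro a
      apply Subtype.ext
      show (a : G) * x.1 * (a : G)⁻¹ = x.1
      rw [mul_inv_eq_iff_eq_mul]
      exact mem_centralizer_iff.1 (mem_inf.1 x.2).2 a a.2
  rw [h2] at h1
  exact h1

/-- fixed points of an element of order `p` -/
theorem card_mod_y {K : Subgroup G} {p : ℕ} (hp : p.Prime) {y : G} (hy : orderOf y = p)
    (hyK : y ∈ normalizer (K : Set G)) : Nat.card K ≡ Nat.card (K ⊓ centralizer ({y} : Set G) : Subgroup G) [MOD p] := by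
  have h1 := card_mod_cent (A := zpowers y) (K := K) hp
    (IsPGroup.of_card (n := 1) (by rw [Nat.card_zpowers, hy, pow_one])) (zpowers_le.2 hyK)
  rwa [cent_zpowers] at h1

/-- `Q` and the index in `K` odd -/
theorem card_two {K Q : Subgroup G} (h2 : IsPGroup 2 Q) (hi : ¬ 2 ∣ (Q.subgroupOf K).index) {k r : ℕ}
    (hK : Nat.card K = 2 ^ k * r) (hr : ¬ 2 ∣ r) : Nat.card (Q ⊓ K : Subgroup G) = 2 ^ k := by
  have hf := Fact.mk Nat.prime_two
  have h4 := (Q.subgroupOf K).card_mul_index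
  have h5 : Nat.card (Q.subgroupOf K) = Nat.card (Q ⊓ K : Subgroup G) := by
    rw [← Subgroup.inf_subgroupOf_right Q K]
    exact Nat.card_congr (Subgroup.subgroupOfEquivOfLe inf_le_right).toEquiv
  rw [h5, hK] at h4
  have h6 : IsPGroup 2 (Q ⊓ K : Subgroup G) := h2.to_le inf_le_left
  obtain ⟨j, hj⟩ := IsPGroup.iff_card.1 h6
  rw [hj] at h4 ⊢
  congr 1
  have hr0 : r ≠ 0 := by
    rintro rfl
    exact hr (dvd_zero _)
  have hi0 : (Q.subgroupOf K).index ≠ 0 := index_ne_zero_of_finite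
  have h7 := congrArg (fun n => n.factorization 2) h4
  rw [Nat.factorization_mul (pow_ne_zero _ two_ne_zero) hi0, Nat.factorization_mul (pow_ne_zero _ two_ne_zero) hr0,
    Nat.factorization_pow, Nat.factorization_pow] at h7
  simpa [Nat.prime_two.factorization_self, Nat.factorization_eq_zero_of_not_dvd hr,
    Nat.factorization_eq_zero_of_not_dvd hi] using h7

/-- the elements of order `p` are in the Sylow subgroups -/
theorem cnt_le_syl {K : Subgroup G} {p k r : ℕ} (hp : p.Prime) (hk : k ≠ 0) (hK : Nat.card K = p ^ k * r) (hr : ¬ p ∣ r) :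
    cnt p K ≤ (p ^ k - 1) * nsub (p ^ k) K := by
  classical
  have hf := Fact.mk hp
  let A := {S : Subgroup G // S ≤ K ∧ Nat.card S = p ^ k}
  letI := Fintype.ofFinite A
  obtain ⟨P, hPK, hP⟩ := exists_sub (G := G) (K := K) (k := k) hp (by rw [hK]; exact dvd_mul_right _ _)
  have hex : ∀ y : {y : G // y ∈ K ∧ orderOf y = p}, ∃ S : A, y.1 ∈ S.1 := by
    intro y
    obtain ⟨g, hg, hgP⟩ := conj_sub hp hK hr hPK (zpowers_le.2 y.2.1) hP
      (IsPGroup.of_card (n := 1) (by rw [Nat.card_zpowers, y.2.2, pow_one]))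
    refine ⟨⟨cj g⁻¹ P, ?_, by rw [card_cj, hP]⟩, ?_⟩
    · rintro _ ⟨x, hx, rfl⟩
      exact K.mul_mem (K.mul_mem (K.inv_mem hg) (hPK hx)) (K.inv_mem (K.inv_mem hg))
    · exact cj_le_iff.1 hgP (mem_zpowers y.1)
  choose f hf' using hex
  have h1 : cnt p K ≤ Nat.card (Σ S : A, {s : S.1 // s ≠ 1}) := by
    refine Nat.card_le_card_of_injective (fun y : {y : G // y ∈ K ∧ orderOf y = p} =>
      (⟨f y, ⟨⟨y.1, hf' y⟩, fun e => ?_⟩⟩ : (Σ S : A, {s : S.1 // s ≠ 1}))) ?_
    · have e1 : y.1 = 1 := Subtype.ext_iff.1 e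
      have := y.2.2
      rw [e1, orderOf_one] at this
      exact hp.one_lt.ne this
    · intro a b e
      exact Subtype.ext (congrArg (fun s : (Σ S : A, {s : S.1 // s ≠ 1}) => (s.2.1 : G)) e)
  refine h1.trans ?_
  rw [Nat.card_sigma]
  rw [Finset.sum_congr rfl (g := fun _ => p ^ k - 1)]
  · rw [Finset.sum_const, smul_eq_mul, Finset.card_univ, mul_comm]
    have : nsub (p ^ k) K = Fintype.card A := Nat.card_eq_fintype_card
    rw [this]
  · intro S _
    letI := Fintype.ofFinite S.1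
    rw [Nat.card_eq_fintype_card, Fintype.card_subtype_compl, Fintype.card_subtype_eq, ← Nat.card_eq_fintype_card,
      S.2.2]

theorem norm_ne_top [hs : IsSimpleGroup G] {Q : Subgroup G} (h1 : Q ≠ ⊥) (h2 : Q ≠ ⊤) : normalizer (Q : Set G) ≠ ⊤ := by
  intro e
  have hn : Q.Normal := ⟨fun k hk g => (mem_normalizer_iff.1 (show g ∈ normalizer (Q : Set G) by rw [e]; trivial) k).1 hk⟩
  rcases hn.eq_bot_or_eq_top with h3 | h3
  · exact h1 h3
  · exact h2 h3

/-- conjugates of the two point stabilisers -/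
theorem cj_M {H : Subgroup G} {u x : G} (hu : u ∈ H) : cj u (H ⊓ cj x H) = H ⊓ cj (u * x) H := by
  rw [cj_inf, cj_eq_self hu, ← cj_mul]

/-- a subgroup conjugate to a two point stabiliser in a two point stabiliser -/
theorem M_eq {H : Subgroup G} (h : EP H) {u x g : G} (hu : u ∈ H) (hx : x ∉ H) (hg : g ∉ H)
    (hle : cj u (H ⊓ cj x H) ≤ H ⊓ cj g H) : H ⊓ cj g H = cj u (H ⊓ cj x H) := by
  rw [cj_M hu] at hle ⊢
  have hux : u * x ∉ H := fun e => hx (by
    have : x = u⁻¹ * (u * x) := by group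
    rw [this]
    exact H.mul_mem (H.inv_mem hu) e)
  rcases h.two (u * x) hux (H ⊓ cj g H) hle inf_le_left with h1 | h1
  · exact h1
  · exfalso
    exact h.not_le_cj hg (inf_eq_left.1 h1)

end Cfsg.Agent.H250.EP
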