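import Cfsg.Agent.H250.EP.TTwo
import Cfsg.Agent.J2Type.SylowSeven

/-!
# Extremely primitive groups with a simple socle of the stabiliser: tools (helper250)
-/

set_option autoImplicit false
set_option linter.unusedSectionVars false
set_option linter.style.haveILetI false

namespace Cfsg.Agent.H250.EP

open MulAction Subgroup Cfsg.Agent.H284 Cfsg.Agent.H209.EPX Cfsg.Agent.H247.EPR Cfsg.Agent.H742.EX

variable {G : Type*} [Group G] [Finite G]

/-- Burnside's transfer theorem in a simple group -/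
theorem no_burnside {N V : Subgroup G} (hs : IsSimpleGroup N) {p k r : ℕ} (hp : p.Prime) (hk : k ≠ 0) (hr1 : r ≠ 1)
    (hN : Nat.card N = p ^ k * r) (hr : ¬ p ∣ r) (hV : V ≤ N) (hc : Nat.card V = p ^ k)
    (hn : ∀ g ∈ N, g ∈ normalizer (V : Set G) → ∀ v ∈ V, g * v = v * g) : False := by
  have hf := Fact.mk hp
  obtain ⟨P, hP⟩ := exists_sylow hp hN hr V hV hc
  have hPc : normalizer ((P : Subgroup N) : Set N) ≤ centralizer ((P : Subgroup N) : Set N) := by
    intro y hy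
    rw [mem_normalizer_iff, hP] at hy
    rw [mem_centralizer_iff]
    intro z hz
    have hz' : (z : G) ∈ V := by
      have : z ∈ (P : Subgroup N) := hz
      rw [hP] at this
      exact this
    apply Subtype.ext
    refine (hn y y.2 ?_ z hz').symm
    rw [mem_normalizer_iff]
    intro w
    constructor
    · intro hw
      exact (hy ⟨w, hV hw⟩).1 hw
    · intro hw
      have h2 : (y : G)⁻¹ * (y * w * (y : G)⁻¹) * y = w := by group
      have h3 : w ∈ N := by
        rw [← h2]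
        exact N.mul_mem (N.mul_mem (N.inv_mem y.2) (hV hw)) y.2
      exact (hy ⟨w, h3⟩).2 hw
  have hcomp : Subgroup.IsComplement' (MonoidHom.transferSylow P hPc).ker (P : Subgroup N) :=
    MonoidHom.ker_transferSylow_isComplement' P hPc
  have hcP : Nat.card (P : Subgroup N) = p ^ k := card_sylow hp hN hr P
  have hmul := hcomp.card_mul
  rw [hcP, hN] at hmul
  rcases (MonoidHom.normal_ker (MonoidHom.transferSylow P hPc)).eq_bot_or_eq_top with h3 | h3
  · rw [h3, Subgroup.card_bot, one_mul] at hmul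
    apply hr1
    have h4 : p ^ k * r = p ^ k * 1 := by rw [← hmul, mul_one]
    exact Nat.eq_of_mul_eq_mul_left (pow_pos hp.pos k) h4
  · rw [h3, Subgroup.card_top, hN] at hmul
    have h4 : p ^ k * r * p ^ k = p ^ k * r * 1 := by rw [hmul, mul_one]
    have hr0 : 0 < r := by
      rcases Nat.eq_zero_or_pos r with h0 | h0
      · rw [h0] at hr
        exact absurd (dvd_zero p) hr
      · exact h0
    have h5 := Nat.eq_of_mul_eq_mul_left (Nat.mul_pos (pow_pos hp.pos k) hr0) h4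
    exact (Nat.one_lt_pow hk hp.one_lt).ne' h5

/-- fibres -/
theorem card_sub_fib_in {H S S' : Subgroup G} (h : ∃ g ∈ H, cj g S' = S) :
    Nat.card {g : H // cj (g : G) S' = S} = Nat.card (H ⊓ normalizer (S : Set G) : Subgroup G) := by
  obtain ⟨g₀, hg₀, h₀⟩ := h
  refine Nat.card_congr
    { toFun := fun g => ⟨(g.1 : G) * g₀⁻¹, H.mul_mem g.1.2 (H.inv_mem hg₀), cj_eq_iff.1 ?_⟩
      invFun := fun g => ⟨⟨g.1 * g₀, H.mul_mem (mem_inf.1 g.2).1 hg₀⟩, ?_⟩
      left_inv := fun g => Subtype.ext (Subtype.ext (by simp))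
      right_inv := fun g => Subtype.ext (by simp) }
  · have h1 : cj g₀⁻¹ S = S' := by
      have e : cj g₀⁻¹ (cj g₀ S') = cj g₀⁻¹ S := congrArg _ h₀
      rw [← e, cj_inv_cj]
    rw [cj_mul, h1]
    exact g.2
  · show cj (g.1 * g₀) S' = S
    rw [cj_mul, h₀]
    exact cj_eq_iff.2 (mem_inf.1 g.2).2

theorem card_norm_cj {H S : Subgroup G} {g : G} (hg : g ∈ H) :
    Nat.card (H ⊓ normalizer ((cj g S : Subgroup G) : Set G) : Subgroup G) = Nat.card (H ⊓ normalizer (S : Set G) : Subgroup G) := by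
  have h1 : H ⊓ normalizer ((cj g S : Subgroup G) : Set G) = cj g (H ⊓ normalizer (S : Set G)) := by
    ext x
    rw [mem_inf, mem_cj, mem_inf, ← cj_eq_iff, ← cj_eq_iff]
    constructor
    · rintro ⟨h1, h2⟩
      refine ⟨H.mul_mem (H.mul_mem (H.inv_mem hg) h1) hg, ?_⟩
      rw [cj_mul, cj_mul, h2, cj_inv_cj]
    · rintro ⟨h1, h2⟩
      have e : x = g * (g⁻¹ * x * g) * g⁻¹ := by group
      refine ⟨by rw [e]; exact H.mul_mem (H.mul_mem hg h1) (H.inv_mem hg), ?_⟩
      have h3 : cj g (cj (g⁻¹ * x * g) S) = cj g S := congrArg _ h2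
      rw [← cj_mul] at h3
      rw [← cj_mul]
      have e2 : g * (g⁻¹ * x * g) = x * g := by group
      rwa [e2] at h3
  rw [h1, card_cj]

/-- **Frattini** -/
theorem frattini {H N P : Subgroup G} (hNH : N ≤ H) (hn : ∀ g ∈ H, ∀ k ∈ N, g * k * g⁻¹ ∈ N) {m : ℕ} (hP : P ≤ N)
    (hc : Nat.card P = m) (hcj : ∀ S ≤ N, Nat.card S = m → ∃ g ∈ N, cj g P = S) :
    nsub m N * Nat.card (H ⊓ normalizer (P : Set G) : Subgroup G) = Nat.card H := by
  classical
  let A := {S : Subgroup G // S ≤ N ∧ Nat.card S = m}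
  letI := Fintype.ofFinite A
  have hle : ∀ g ∈ H, cj g P ≤ N := by
    rintro g hg _ ⟨x, hx, rfl⟩
    exact hn g hg x (hP hx)
  let f : H → A := fun g => ⟨cj (g : G) P, hle g g.2, by rw [card_cj, hc]⟩
  have h1 : Nat.card H = Nat.card (Σ a : A, {g : H // f g = a}) := Nat.card_congr (Equiv.sigmaFiberEquiv f).symm
  rw [h1, Nat.card_sigma]
  rw [Finset.sum_congr rfl (g := fun _ => Nat.card (H ⊓ normalizer (P : Set G) : Subgroup G))]
  · rw [Finset.sum_const, smul_eq_mul, Finset.card_univ]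
    have : nsub m N = Fintype.card A := Nat.card_eq_fintype_card
    rw [this]
  · rintro ⟨S, hS, hSc⟩ _
    obtain ⟨g, hg, hgS⟩ := hcj S hS hSc
    have h2 : Nat.card {g : H // f g = ⟨S, hS, hSc⟩} = Nat.card {g : H // cj (g : G) P = S} :=
      Nat.card_congr (Equiv.subtypeEquivRight fun g => ⟨fun e => Subtype.ext_iff.1 e, fun e => Subtype.ext e⟩)
    rw [h2, card_sub_fib_in ⟨g, hNH hg, hgS⟩, ← hgS, card_norm_cj (hNH hg)]

/-- **Frattini**, Sylow subgroups -/
theorem frattini_syl {H N P : Subgroup G} (hNH : N ≤ H) (hn : ∀ g ∈ H, ∀ k ∈ N, g * k * g⁻¹ ∈ N) {p k r : ℕ}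
    (hp : p.Prime) (hN : Nat.card N = p ^ k * r) (hr : ¬ p ∣ r) (hP : P ≤ N) (hc : Nat.card P = p ^ k) :
    nsub (p ^ k) N * Nat.card (H ⊓ normalizer (P : Set G) : Subgroup G) = Nat.card H :=
  frattini hNH hn hP hc fun _ hS hSc => conj_sub' hp hN hr hS hP hSc hc

/-- the normaliser of a subgroup of prime order -/
theorem card_norm_prime {P : Subgroup G} {p : ℕ} (hp : p.Prime) (hP : Nat.card P = p) :
    Nat.card (normalizer (P : Set G)) ∣ (p - 1) * Nat.card (centralizer (P : Set G)) := by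
  obtain ⟨c, hc⟩ := Cfsg.Agent.J2Type.SylowSeven.relIndex_dvd_of_card_prime P hp hP
  have h1 := Cfsg.Agent.J2Type.SylowSeven.card_mul_relIndex' (Subgroup.centralizer_le_normalizer (P : Set G))
  exact ⟨c, by rw [hc, ← h1]; ring⟩

/-- the centraliser of a cyclic group -/
theorem cent_zpowers (y : G) : centralizer ((zpowers y : Subgroup G) : Set G) = centralizer ({y} : Set G) := by
  ext g
  rw [mem_centralizer_singleton_iff, mem_centralizer_iff]
  constructor
  · intro hg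
    exact (hg y (mem_zpowers _)).symm
  · rintro hg _ ⟨k, rfl⟩
    exact ((Commute.zpow_right (show Commute g y from hg) k).eq).symm

/-- a subgroup of prime order is generated by each element -/
theorem eq_zpowers {P : Subgroup G} {p : ℕ} (hp : p.Prime) (hP : Nat.card P = p) {y : G} (hy : y ∈ P) (h1 : y ≠ 1) :
    zpowers y = P ∧ orderOf y = p := by
  have h3 : orderOf (⟨y, hy⟩ : P) ∣ p := by
    have := orderOf_dvd_natCard (⟨y, hy⟩ : P)
    rwa [hP] at this
  rw [Subgroup.orderOf_mk] at h3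
  rcases (Nat.dvd_prime hp).1 h3 with h4 | h4
  · exact absurd (orderOf_eq_one_iff.1 h4) h1
  · refine ⟨Subgroup.eq_of_le_of_card_ge (zpowers_le.2 hy) ?_, h4⟩
    rw [hP, Nat.card_zpowers, h4]

theorem exists_ne {P : Subgroup G} (h : Nat.card P ≠ 1) : ∃ y ∈ P, y ≠ 1 := by
  by_contra hcon
  push Not at hcon
  exact h (Subgroup.card_eq_one.2 ((Subgroup.eq_bot_iff_forall P).2 hcon))

theorem le_norm {H P : Subgroup G} (h : ∀ g ∈ H, ∀ k ∈ P, g * k * g⁻¹ ∈ P) : H ≤ normalizer (P : Set G) := by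
  intro g hg
  rw [mem_normalizer_iff]
  intro k
  refine ⟨h g hg k, fun hk => ?_⟩
  have := h g⁻¹ (inv_mem hg) _ hk
  have e : g⁻¹ * (g * k * g⁻¹) * g⁻¹⁻¹ = k := by group
  rwa [e] at this

theorem of_le_norm {H P : Subgroup G} (h : H ≤ normalizer (P : Set G)) : ∀ g ∈ H, ∀ k ∈ P, g * k * g⁻¹ ∈ P :=
  fun g hg k hk => (mem_normalizer_iff.1 (h hg) k).1 hk

/-- elements of order prime to `|H : N|` are in `N` -/
theorem mem_of_coprime {H N : Subgroup G} (hNH : N ≤ H) (hn : ∀ g ∈ H, ∀ k ∈ N, g * k * g⁻¹ ∈ N) {a : ℕ}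
    (ha : Nat.card H = Nat.card N * a) {y : G} (hy : y ∈ H) (hc : (orderOf y).Coprime a) : y ∈ N := by
  have hN : (N.subgroupOf H).Normal := ⟨fun k hk g => hn g g.2 k hk⟩
  have hi : (N.subgroupOf H).index = a := by
    have h1 := (N.subgroupOf H).card_mul_index
    rw [Nat.card_congr (Subgroup.subgroupOfEquivOfLe hNH).toEquiv, ha] at h1
    exact Nat.eq_of_mul_eq_mul_left Nat.card_pos h1
  have h2 := Subgroup.pow_index_mem (N.subgroupOf H) (⟨y, hy⟩ : H)
  rw [hi] at h2
  have h3 : y ^ a ∈ N := h2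
  obtain ⟨m, hm⟩ := exists_pow_eq_self_of_coprime (n := a) (x := y) (Nat.Coprime.symm hc)
  rw [← hm]
  exact N.pow_mem h3 m

theorem cnt_in {H N : Subgroup G} (hNH : N ≤ H) (hn : ∀ g ∈ H, ∀ k ∈ N, g * k * g⁻¹ ∈ N) {a : ℕ}
    (ha : Nat.card H = Nat.card N * a) {r : ℕ} (hc : r.Coprime a) : cnt r H = cnt r N := by
  unfold cnt
  apply Nat.card_congr
  apply Equiv.subtypeEquivRight
  intro y
  constructor
  · rintro ⟨h1, h2⟩
    exact ⟨mem_of_coprime hNH hn ha h1 (by rw [h2]; exact hc), h2⟩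
  · rintro ⟨h1, h2⟩
    exact ⟨hNH h1, h2⟩

/-- an element of order `r` in a subgroup gives `r - 1` elements -/
theorem le_cnt {K : Subgroup G} {r : ℕ} (hr : r.Prime) (hd : r ∣ Nat.card K) : r - 1 ≤ cnt r K := by
  have hf := Fact.mk hr
  obtain ⟨y, hy⟩ := exists_prime_orderOf_dvd_card' r hd
  rw [cnt_eq hr]
  have h1 : 0 < nsub r K := by
    have : Nonempty {S : Subgroup G // S ≤ K ∧ Nat.card S = r} :=
      ⟨⟨zpowers (y : G), zpowers_le.2 y.2, by rw [Nat.card_zpowers, Subgroup.orderOf_coe, hy]⟩⟩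
    exact Nat.card_pos
  exact Nat.le_mul_of_pos_right _ h1

end Cfsg.Agent.H250.EP
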