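import Cfsg.Agent.H250.EP.TF
import Cfsg.Agent.H742.EX.NoS

/-!
# The Tits group: the stabiliser has a simple socle (helper250)
-/

set_option autoImplicit false
set_option linter.unusedSectionVars false
set_option linter.style.haveILetI false

namespace Cfsg.Agent.H250.EP

open MulAction Subgroup Cfsg.Agent.H284 Cfsg.Agent.H209.EPX Cfsg.Agent.H247.EPR Cfsg.Agent.H742.EX

namespace TF

variable {G : Type*} [Group G] [Finite G] (F : TF G)

include F

/-- two commuting subgroups with orders from the list -/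
theorem no_comm {A B : Subgroup G} (hc : ∀ a ∈ A, ∀ b ∈ B, a * b = b * a) {m : ℕ}
    (hm : m ∈ [60, 360, 5616, 7800, 62400, 17971200]) (hA : m ∣ Nat.card A) (hB : m ∣ Nat.card B) : False := by
  have h13 : 13 ∣ m → False := by
    intro h13
    have hf : Fact (Nat.Prime 13) := ⟨by norm_num⟩
    obtain ⟨x, hx⟩ := exists_prime_orderOf_dvd_card' 13 (h13.trans hA)
    have hR : Nat.card (zpowers (x : G)) = 13 := by rw [Nat.card_zpowers, Subgroup.orderOf_coe, hx]
    have h1 := (F.n13 _ hR).1
    have h2 : B ≤ centralizer ((zpowers (x : G) : Subgroup G) : Set G) := by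
      intro b hb
      rw [mem_centralizer_iff]
      rintro _ ⟨i, rfl⟩
      exact ((show Commute (x : G) b from hc x x.2 b hb).zpow_left i).eq
    have h3 := hB.trans (Subgroup.card_dvd_of_le h2)
    rw [h1] at h3
    simp only [List.mem_cons, List.not_mem_nil, or_false] at hm
    rcases hm with rfl | rfl | rfl | rfl | rfl | rfl <;> norm_num at h3
  have h15 : 15 ∣ m → False := by
    intro h15
    have hf3 := Fact.mk Nat.prime_three
    have hf5 := Fact.mk Nat.prime_five
    obtain ⟨x, hx⟩ := exists_prime_orderOf_dvd_card' 3 (((by norm_num : 3 ∣ 15).trans h15).trans hA)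
    obtain ⟨y, hy⟩ := exists_prime_orderOf_dvd_card' 5 (((by norm_num : 5 ∣ 15).trans h15).trans hB)
    exact F.ncomm x y (by rw [Subgroup.orderOf_coe, hx]) (by rw [Subgroup.orderOf_coe, hy]) (hc x x.2 y y.2)
  simp only [List.mem_cons, List.not_mem_nil, or_false] at hm
  rcases hm with rfl | rfl | rfl | rfl | rfl | rfl
  · exact h15 (by norm_num)
  · exact h15 (by norm_num)
  · exact h13 (by norm_num)
  · exact h13 (by norm_num)
  · exact h13 (by norm_num)
  · exact h13 (by norm_num)

theorem card_T {N : Subgroup G} {T : Type} [Group T] {k : ℕ} (e : N ≃* (Fin k → T)) (hk : 0 < k) (hs : IsSimpleGroup T)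
    (hna : ∃ a b : T, a * b ≠ b * a) : Finite T ∧ Nat.card T ∣ Nat.card N ∧ Nat.card T ∈ [60, 360, 5616, 7800, 62400, 17971200] := by
  have hfin : Finite (Fin k → T) := Finite.of_equiv _ e.toEquiv
  have hft : Finite T := Finite.of_surjective (fun f : Fin k → T => f ⟨0, hk⟩) fun t => ⟨fun _ => t, rfl⟩
  have hd : Nat.card T ∣ Nat.card N := by
    rw [Nat.card_congr e.toEquiv, Nat.card_pi, Finset.prod_const, Finset.card_univ, Fintype.card_fin]
    exact dvd_pow_self _ hk.ne'
  refine ⟨hft, hd, F.ords T hs ?_ ?_⟩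
  · intro h
    obtain ⟨a, b, hab⟩ := hna
    exact hab (h a b)
  · rw [← F.card]
    exact hd.trans (Subgroup.card_subgroup_dvd_card N)

theorem no_two {H N N' : Subgroup G} {T : Type} [Group T] {k : ℕ} (e : N ≃* (Fin k → T)) (h : EPT2 H N N' e) : False := by
  obtain ⟨_, h1, h2⟩ := F.card_T e h.pos h.simple h.nab
  have h3 := h.ep.card_comm h.m1.le h.m1.nrm h.m1.ne h.m2.le h.m2.nrm h.m2.ne h.comm h.ep.max.1
  exact F.no_comm h.comm h2 h1 (h3 ▸ h1)

theorem k_one {H N : Subgroup G} {T : Type} [Group T] {k : ℕ} (e : N ≃* (Fin k → T)) (h : EPS H N e) : k = 1 := by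
  by_contra hk
  have hk2 : 2 ≤ k := by
    have := h.pos
    omega
  obtain ⟨_, h1, h2⟩ := F.card_T e h.pos h.simple h.nab
  let f : Fin k → (T →* G) := fun i => N.subtype.comp (e.symm.toMonoidHom.comp (MonoidHom.mulSingle (fun _ : Fin k => T) i))
  have hinj : ∀ i, Function.Injective (f i) := by
    intro i a b hab
    have h3 : (MonoidHom.mulSingle (fun _ : Fin k => T) i) a = (MonoidHom.mulSingle (fun _ : Fin k => T) i) b :=
      e.symm.injective (N.subtype_injective hab)
    exact Pi.mulSingle_injective i h3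
  have hcd : ∀ i, Nat.card T = Nat.card (f i).range := fun i => Nat.card_congr (MonoidHom.ofInjective (hinj i)).toEquiv
  have hc : ∀ a ∈ (f ⟨0, h.pos⟩).range, ∀ b ∈ (f ⟨1, by omega⟩).range, a * b = b * a := by
    rintro _ ⟨a, rfl⟩ _ ⟨b, rfl⟩
    have h4 : Commute (Pi.mulSingle (⟨0, h.pos⟩ : Fin k) a : Fin k → T) (Pi.mulSingle (⟨1, by omega⟩ : Fin k) b) :=
      Pi.mulSingle_commute (f := fun _ : Fin k => T) (by
        intro e1
        have := congrArg Fin.val e1
        simp at this) a b
    have h5 := h4.map (N.subtype.comp e.symm.toMonoidHom)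
    exact h5.eq
  exact F.no_comm hc h2 (hcd _ ▸ dvd_rfl) (hcd _ ▸ dvd_rfl)

end TF

end Cfsg.Agent.H250.EP
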